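import Mathlib
import Cfsg.Agent.Inv.KGroup

/-! # Extensions and products of `K`-groups -/

set_option autoImplicit false

namespace Cfsg.Agent.McB

open Cfsg Subgroup Cfsg.Agent.Inv.KG

/-- An extension of a `K`-group by a `K`-group is a `K`-group. -/
theorem isKGroup_of_ker {X Y : Type*} [Group X] [Group Y] (φ : X →* Y) (h1 : IsKGroup φ.ker)
    (h2 : IsKGroup Y) : IsKGroup X := by
  intro H N _ hs hc
  have hn : ((φ.ker.subgroupOf H).map (QuotientGroup.mk' N)).Normal :=
    Normal.map inferInstance _ (QuotientGroup.mk'_surjective N)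
  rcases hn.eq_bot_or_eq_top with h | h
  · have h3 : (φ.domRestrict H).ker ≤ (QuotientGroup.mk' N).ker := (Subgroup.map_eq_bot_iff _).1 h
    have e := QuotientGroup.quotientKerEquivRange (φ.domRestrict H)
    exact known_of_surjective h2 _ ((QuotientGroup.lift _ _ h3).comp e.symm.toMonoidHom)
      ((QuotientGroup.lift_surjective_of_surjective _ _ (QuotientGroup.mk'_surjective N) h3).comp
        e.symm.surjective) hc
  · refine known_of_surjective h1 (H.subgroupOf φ.ker) ((QuotientGroup.mk' N).comp
      ((φ.ker.subtype.comp (Subgroup.subtype _)).codRestrict H fun x => x.2)) (fun y => ?_) hc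
    obtain ⟨x, hx, rfl⟩ := h.ge (mem_top y)
    exact ⟨⟨⟨x, hx⟩, x.2⟩, rfl⟩

theorem isKGroup_of_subsingleton {X : Type*} [Group X] [Subsingleton X] : IsKGroup X :=
  fun _ N _ _ hc => (hc ⟨⟨fun a b => by
    obtain ⟨a, rfl⟩ := QuotientGroup.mk_surjective a
    obtain ⟨b, rfl⟩ := QuotientGroup.mk_surjective b
    rw [Subsingleton.elim a b]⟩⟩).elim

theorem isKGroup_prod {X Y : Type*} [Group X] [Group Y] (h1 : IsKGroup X) (h2 : IsKGroup Y) :
    IsKGroup (X × Y) :=
  isKGroup_of_ker (MonoidHom.snd X Y) (isKGroup_of_injective h1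
    ((MonoidHom.fst X Y).comp (Subgroup.subtype _)) fun a b e =>
      Subtype.ext (Prod.ext e ((show a.1.2 = 1 from a.2).trans (show b.1.2 = 1 from b.2).symm))) h2

theorem isKGroup_pi {K : Type*} [Group K] (h : IsKGroup K) (ι : Type*) [Finite ι] :
    IsKGroup (ι → K) := by
  induction ι using Finite.induction_empty_option with
  | of_equiv e ih => exact isKGroup_of_mulEquiv ih (MulEquiv.arrowCongr e (MulEquiv.refl K))
  | h_empty => exact isKGroup_of_subsingleton
  | h_option ih =>
    exact isKGroup_of_injective (isKGroup_prod h ih)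
      ((Pi.evalMonoidHom _ none).prod (Pi.monoidHom fun i => Pi.evalMonoidHom _ (some i)))
      fun a b e => funext fun i => by
        cases i with
        | none => exact congrArg Prod.fst e
        | some i => exact congrFun (congrArg Prod.snd e) i

end Cfsg.Agent.McB
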